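import Mathlib
import Cfsg.Agent.Lib.Palfy.C2b

/-! The three primes theorem for solvable groups. -/

set_option autoImplicit false
open Cfsg Subgroup
open scoped Pointwise commutatorElement

namespace H64.Palfy

universe u

theorem core {G : Type*} [Group G] [Finite G] [Group.IsSolvable G] {M : Subgroup G} [M.Normal]
    (hM : H3.IsMinNormal M) {p q r : ℕ} [hp : Fact p.Prime] [hq : Fact q.Prime]
    [hr : Fact r.Prime] (hpq : p ≠ q) (hpr : p ≠ r) (hqr : q ≠ r) (h0 : ¬ Rho (G ⧸ M) p)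
    (rp : Rho G p) (rq : Rho G q) (rr : Rho G r) (h1 : ¬ Rho G (p * q)) (h2 : ¬ Rho G (p * r)) :
    Rho G (q * r) := by
  obtain ⟨P⟩ : Nonempty (Sylow p G) := inferInstance
  have hπ := QuotientGroup.mk'_surjective M
  obtain ⟨hn, hc⟩ := ito h0 (P.mapSurjective hπ)
  by_cases hP : (P : Subgroup G).Normal
  swap
  · haveI : (M ⊔ P : Subgroup G).Normal := by
      have := hn.comap (QuotientGroup.mk' M)
      rwa [Sylow.coe_mapSurjective, comap_map_eq, QuotientGroup.ker_mk', sup_comm] at this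
    exact case1 hM hpq hpr hqr P hP h1 h2 rq rr
  have a1 : ⁅(P : Subgroup G), (P : Subgroup G)⁆ ≤ M := commutator_le.mpr fun x hx y hy => by
    rw [← QuotientGroup.eq_one_iff]
    show QuotientGroup.mk' M ⁅x, y⁆ = 1
    rw [map_commutatorElement, commutatorElement_eq_one_iff_mul_comm]
    exact hc _ ⟨x, hx, rfl⟩ _ ⟨y, hy, rfl⟩
  have a2 : M = ⁅(P : Subgroup G), (P : Subgroup G)⁆ := by
    refine le_antisymm ((hM.inf_eq_bot_or_le _).resolve_left fun e => ?_) a1
    rw [inf_eq_right.mpr a1, commutator_eq_bot_iff_le_centralizer] at e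
    exact not_rho_of_comm (fun a ha b hb => e hb a ha) P.not_dvd_index rp
  have a3 : M ≤ centralizer ((P : Subgroup G) : Set G) := by
    refine (hM.inf_eq_bot_or_le _).resolve_left fun e => ?_
    obtain ⟨z, hz, hz', ho⟩ := H5.exists_mem_centralizer_orderOf_eq P.2
      (a2 ▸ commutator_le_left _ _ : M ≤ P) (by rw [normalizer_eq_top]; exact le_top) hM.ne_bot
    have : z = 1 := Subgroup.mem_bot.mp (e ▸ (⟨hz, hz'⟩ : z ∈ M ⊓ _))
    rw [this, orderOf_one] at ho
    exact hp.1.one_lt.ne ho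
  have h : C2 p (P : Subgroup G) M := ⟨P.2, P.not_dvd_index, hM, a2, a3⟩
  by_contra h3
  by_cases hdq : q ∣ (dual M).ker.index
  swap
  · exact h.main hpq hpr hqr h1 h2 h3 rq rr hdq
  by_cases hdr : r ∣ (dual M).ker.index
  swap
  · exact h.main hpr hpq hqr.symm h2 h1 (by rwa [mul_comm]) rr rq hdr
  haveI := finite_dual (G := M)
  haveI := nontrivial_dual hM.ne_bot h.comm
  exact h3 (n2' (irr_dual hM h.comm) (ker_dual h.comm ▸ Subgroup.le_centralizer_iff.mp a3) hqr
    (h.ns_dual hpq h1) (h.ns_dual hpr h2) hdq hdr)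

theorem three_aux (n : ℕ) : ∀ (G : Type u) [Group G] [Finite G] [Group.IsSolvable G],
    Nat.card G = n → ∀ {p q r : ℕ} [Fact p.Prime] [Fact q.Prime] [Fact r.Prime],
    p ≠ q → q ≠ r → p ≠ r → Rho G p → Rho G q → Rho G r →
    Rho G (p * q) ∨ Rho G (q * r) ∨ Rho G (p * r) := by
  induction n using Nat.strong_induction_on with
  | _ n ih =>
  intro G _ _ _ hn p q r hp hq hr hpq hqr hpr rp rq rr
  rcases subsingleton_or_nontrivial G with hG | hG
  · exact absurd rp (not_rho_of_comm (S := ⊤) (fun a _ b _ => Subsingleton.elim _ _)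
      (by rw [Subgroup.index_top]; exact hp.1.not_dvd_one))
  obtain ⟨M, hM⟩ := H3.exists_isMinNormal G
  haveI := hM.normal
  by_contra hc
  push Not at hc
  obtain ⟨h1, h2, h3⟩ := hc
  by_cases a : Rho (G ⧸ M) p
  swap
  · exact h2 (core hM hpq hpr hqr a rp rq rr h1 h3)
  by_cases b : Rho (G ⧸ M) q
  swap
  · exact h3 (core hM hpq.symm hqr hpr b rq rp rr (by rwa [mul_comm]) h2)
  by_cases c : Rho (G ⧸ M) r
  swap
  · exact h1 (core hM hpr.symm hqr.symm hpq c rr rp rq (by rwa [mul_comm]) (by rwa [mul_comm]))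
  have hπ := QuotientGroup.mk'_surjective M
  rcases ih _ (hn ▸ H3.card_quotient_lt M hM.ne_bot) (G ⧸ M) rfl hpq hqr hpr a b c with h | h | h
  exacts [h1 (h.of_surjective _ hπ), h2 (h.of_surjective _ hπ), h3 (h.of_surjective _ hπ)]

theorem three {G : Type*} [Group G] [Finite G] [Group.IsSolvable G] {p q r : ℕ} (hp : p.Prime)
    (hq : q.Prime) (hr : r.Prime) (hpq : p ≠ q) (hqr : q ≠ r) (hpr : p ≠ r) (rp : Rho G p)
    (rq : Rho G q) (rr : Rho G r) : Rho G (p * q) ∨ Rho G (q * r) ∨ Rho G (p * r) :=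
  haveI := Fact.mk hp
  haveI := Fact.mk hq
  haveI := Fact.mk hr
  three_aux _ G rfl hpq hqr hpr rp rq rr

end H64.Palfy
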