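import Mathlib
import Cfsg.Agent.Lib.Palfy.C2b
import Cfsg.Agent.Lib.Core.Permutable
import Cfsg.Agent.Lib.Core.Frobenius

/-! Groups without divisibility among non-linear degrees: general lemmas. -/

set_option autoImplicit false
open Cfsg Subgroup
open scoped Pointwise commutatorElement ComplexConjugate

namespace H64.Palfy

/-- No divisibility among distinct non-linear degrees. -/
def ND (G : Type*) [Group G] : Prop :=
  ∀ χ ψ, IsIrrCharacter G χ → IsIrrCharacter G ψ → charDegree χ ≠ 1 →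
    charDegree χ ∣ charDegree ψ → charDegree χ = charDegree ψ

variable {G : Type*} [Group G] [Finite G]

theorem ND.single (h : ND G) {A : Subgroup G} [A.Normal] {q k : ℕ} (hq : q.Prime)
    (hA : (Nat.card A).Coprime q) (hk : A.index = q ^ k) (hc : ¬ commutator G ≤ A) :
    (∀ a ∈ A, ∀ b ∈ A, a * b = b * a) ∧
      ∃ d, q ∣ d ∧ ∀ χ, IsIrrCharacter G χ → charDegree χ = 1 ∨ charDegree χ = d := by
  obtain ⟨g, hg, hgA⟩ := SetLike.not_le_iff_exists.mp hc
  obtain ⟨τ, hτ, hAτ, hgτ⟩ := H87.exists_irr_ker_of_not_mem A hgA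
  have τ1 : charDegree τ ≠ 1 := fun e => hgτ ((H87.deg_eq_one_iff_commutator_le hτ).mp e hg)
  obtain ⟨i, -, hi⟩ := (Nat.dvd_prime_pow hq).mp (hk ▸ H87.deg_dvd_index_of_ker hτ A
    fun a ha => (H6.mem_charKer (H6.irr_isCharacter hτ)).mp (hAτ ha))
  have hc : ∀ a ∈ A, ∀ b ∈ A, a * b = b * a := by
    have : ∀ θ, IsIrrCharacter A θ → charDegree θ = 1 := by
      intro θ hθ
      have hle : A ≤ H7.inertia θ := H7.le_inertia (H6.irr_isClassFunction hθ)
      have hd : A.relIndex (H7.inertia θ) * (H7.inertia θ).index = q ^ k :=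
        hk ▸ Subgroup.relIndex_mul_index hle
      obtain ⟨ψ, hψ, he⟩ := H31.extends_le_of_coprime hle hθ le_rfl
        (Nat.Coprime.coprime_dvd_left (Dvd.intro _ hd) (Nat.Coprime.pow_left k hA.symm))
      obtain ⟨β, hβ, ho⟩ := H87.exists_under hτ (H7.inertia θ)
      have hβk : ∀ x ∈ A.subgroupOf (H7.inertia θ), β x = β 1 := fun x hx =>
        ho.apply_eq_of_mem_ker (H6.irr_isCharacter hτ) hβ
          ((H6.mem_charKer (H6.irr_isCharacter hτ)).mp (hAτ hx))
      obtain ⟨χ, hχ, -, e⟩ := H87.exists_over_of_ext hle hθ le_rfl hψ he hβ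
        fun x hx => (H6.mem_charKer (H6.irr_isCharacter hβ)).mpr (hβk x hx)
      have h1 := ho.deg_le_index_mul hτ (H6.irr_isCharacter hβ)
      obtain ⟨j, -, hj⟩ := (Nat.dvd_prime_pow hq).mp (show (H7.inertia θ).index * charDegree β ∣
        q ^ k by rw [← hd, mul_comm]; exact mul_dvd_mul (H87.deg_dvd_index_of_ker hβ _ hβk) dvd_rfl)
      rw [hi, hj] at h1
      have h2 := h τ χ hτ hχ τ1 (by
        rw [e, hi, hj]
        exact (pow_dvd_pow q ((Nat.pow_le_pow_iff_right hq.one_lt).mp h1)).mul_right _)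
      rw [e, hi, hj] at h2
      have h3 := H87.deg_pos hθ
      have h4 : 0 < q ^ j := pow_pos hq.pos _
      nlinarith
    exact fun a ha b hb => congrArg Subtype.val (H87.comm_of_forall_deg_eq_one this ⟨a, ha⟩ ⟨b, hb⟩)
  refine ⟨hc, charDegree τ, ?_, fun χ hχ => ?_⟩
  · rw [hi] at τ1 ⊢
    exact dvd_pow_self q (by rintro rfl; exact τ1 rfl)
  obtain ⟨j, -, hj⟩ := (Nat.dvd_prime_pow hq).mp (hk ▸ H87.deg_dvd_index_of_comm A hc hχ)
  by_cases h1 : charDegree χ = 1
  · exact Or.inl h1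
  rcases le_total i j with hij | hij
  · exact Or.inr (h τ χ hτ hχ τ1 (by rw [hi, hj]; exact pow_dvd_pow q hij)).symm
  · exact Or.inr (h χ τ hχ hτ h1 (by rw [hi, hj]; exact pow_dvd_pow q hij))

/-- If the non-linear characters vanish at `x`, its class is a coset of the derived group. -/
theorem isConj_of_vanish {x : G} (h : ∀ χ, IsIrrCharacter G χ → charDegree χ ≠ 1 → χ x = 0) {b : G}
    (hb : b ∈ commutator G) : IsConj x (x * b) := by
  classical
  by_contra hc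
  have h1 := H6.column_orthogonality_not_isConj hc
  have h2 : ∀ χ : IrrCharacter G, (χ : G → ℂ) x * conj ((χ : G → ℂ) (x * b)) =
      if charDegree (χ : G → ℂ) = 1 then 1 else 0 := by
    intro χ
    split_ifs with h3
    · have hχ := H6.irr_isCharacter χ.2
      obtain ⟨μ, e⟩ := H6.exists_hom_of_char_one_eq_one hχ ((H87.deg_eq_one_iff hχ).mp h3)
      rw [H87.char_mul_right_of_eq_one hχ ((H6.mem_charKer hχ).mp
        ((H87.deg_eq_one_iff_commutator_le χ.2).mp h3 hb)), ← H6.char_inv hχ, e]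
      simp [← Units.val_mul]
    · rw [h _ χ.2 h3, zero_mul]
  simp only [h2, Finset.sum_boole, Nat.cast_eq_zero, Finset.card_eq_zero,
    Finset.filter_eq_empty_iff, Finset.mem_univ, true_imp_iff] at h1
  exact h1 (x := ⟨_, H6.isIrrCharacter_hom (1 : G →* ℂˣ)⟩) (H87.deg_hom 1)

section
variable {W : Type*} [Group W] {φ : G →* MulAut W}

theorem nq_of_comm {r : ℕ} [Fact r.Prime] {U : Subgroup W}
    (h : ∀ w ∈ U, w ≠ 1 → ¬ r ∣ (st φ w).index ∧ ∀ a ∈ st φ w, ∀ b ∈ st φ w, a * b = b * a) :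
    NQ φ r U := fun w hw h1 => by
  obtain ⟨R, hR⟩ := exists_sylow_le (h w hw h1).1
  exact ⟨R, hR, le_trans (show st φ w ≤ centralizer ((R : Subgroup G) : Set G) from
    fun a ha b hb => (h w hw h1).2 b (hR hb) a ha) (centralizer_le_normalizer _)⟩

omit [Finite G] in
theorem st_mul_le {a b : W} (hc : a * b = b * a) (h : (orderOf a).Coprime (orderOf b)) :
    st φ (a * b) ≤ st φ a := by
  intro g hg
  obtain ⟨k, h1, h2⟩ := Nat.chineseRemainder h 1 0
  have e : (a * b) ^ k = a := by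
    rw [Commute.mul_pow hc, pow_eq_pow_iff_modEq.mpr h1, pow_eq_pow_iff_modEq.mpr h2]; simp
  rw [mem_st] at *
  rw [← e, map_pow, hg]

theorem NQ.isPGroup [Finite W] [Nontrivial W] (hc : ∀ a b : W, a * b = b * a) {r : ℕ}
    [Fact r.Prime] (h : NQ φ r ⊤) (hn : Nat.card (Sylow r G) ≠ 1) :
    ∃ p : ℕ, p.Prime ∧ IsPGroup p W := by
  obtain ⟨p, hp, hd⟩ := Nat.exists_prime_and_dvd (Finite.one_lt_card (α := W)).ne'
  haveI := Fact.mk hp
  refine ⟨p, hp, IsPGroup.of_card (Nat.eq_prime_pow_of_unique_prime_dvd Nat.card_pos.ne'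
    fun {s} hs hsd => ?_)⟩
  by_contra hne
  haveI := Fact.mk hs
  obtain ⟨a, ha⟩ := exists_prime_orderOf_dvd_card' p hd
  obtain ⟨b, hb⟩ := exists_prime_orderOf_dvd_card' s hsd
  have b1 : b ≠ 1 := by rintro rfl; rw [orderOf_one] at hb; exact hs.one_lt.ne hb
  obtain ⟨R, -, hR⟩ := h b trivial b1
  have key : ∀ c : W, orderOf c = p → (R : Subgroup G) ≤ st φ c := by
    intro c hc'
    have cop : (orderOf c).Coprime (orderOf b) := by
      rw [hc', hb]; exact (Nat.coprime_primes hp hs).mpr (Ne.symm hne)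
    obtain ⟨R', h1, -⟩ := h (c * b) trivial fun e => by
      rw [eq_inv_of_mul_eq_one_left e, orderOf_inv, hb] at hc'; exact hne hc'
    have e : R' = R := sylow_eq_of_le (le_trans (le_trans h1
      (by rw [hc c b]; exact st_mul_le (hc b c) cop.symm)) hR)
    rw [← e]
    exact h1.trans (st_mul_le (hc c b) cop)
  obtain ⟨R0, -, h0⟩ := h a trivial (by
    rintro rfl; rw [orderOf_one] at ha; exact hp.one_lt.ne ha)
  refine hn (Nat.card_eq_one_iff_unique.mpr ⟨⟨fun Q Q' => ?_⟩, inferInstance⟩)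
  have all : ∀ Q : Sylow r G, Q = R0 := fun Q => by
    obtain ⟨g, rfl⟩ := MulAction.exists_smul_eq G R Q
    refine sylow_eq_of_le (le_trans ?_ h0)
    have := smul_le_st g (key (φ g⁻¹ a) (by rw [MulEquiv.orderOf_eq, ha]))
    rwa [app_inv] at this
  rw [all Q, all Q']

theorem card_eq_of_nq {W' : Type*} [Group W'] [Finite W] [Finite W'] {φ' : G →* MulAut W'}
    {p r : ℕ} [hp : Fact p.Prime] [Fact r.Prime] (hW : IsPGroup p W) (hW' : IsPGroup p W')
    {U : Subgroup W} {U' : Subgroup W'} (hU : ∀ h, ∀ x ∈ U, φ h x ∈ U)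
    (hU' : ∀ h, ∀ x ∈ U', φ' h x ∈ U') (h : NQ φ r U) (h' : NQ φ' r U') (h0 : U ≠ ⊥)
    (h0' : U' ≠ ⊥) (hn : Nat.card (Sylow r G) ≠ 1) : Nat.card U = Nat.card U' := by
  obtain ⟨R⟩ : Nonempty (Sylow r G) := inferInstance
  obtain ⟨a, c, ha, hca, e1⟩ := count_pow hW hU h h0 hn R
  obtain ⟨b, d, hb, hdb, e2⟩ := count_pow hW' hU' h' h0' hn R
  rw [ha, hb, num hp.1 e1 e2 hca hdb]

omit [Finite G] in
theorem mem_of_fpf [Finite W] (hc : ∀ a b : W, a * b = b * a) {t : G}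
    (ht : ∀ w, φ t w = w → w = 1) {Y : Subgroup W} (hY : ∀ w ∈ Y, φ t w ∈ Y) {w : W}
    (h : φ t w * w⁻¹ ∈ Y) : w ∈ Y := by
  have inj : ∀ a b : W, φ t a * a⁻¹ = φ t b * b⁻¹ → a = b := fun a b e => by
    rw [← mul_inv_eq_one]
    apply ht
    calc φ t (a * b⁻¹) = (φ t a * a⁻¹) * (a * (φ t b)⁻¹) := by rw [map_mul, map_inv]; group
      _ = (φ t b * b⁻¹) * ((φ t b)⁻¹ * a) := by rw [e, hc a]
      _ = a * b⁻¹ := by rw [hc (φ t b), hc a]; group
  let f : Y → Y := fun y => ⟨φ t y * (y : W)⁻¹, mul_mem (hY y y.2) (inv_mem y.2)⟩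
  obtain ⟨y, hy⟩ := Finite.surjective_of_injective (f := f)
    (fun a b e => Subtype.ext (inj _ _ (congrArg Subtype.val e))) ⟨_, h⟩
  exact inj _ _ (congrArg Subtype.val hy) ▸ y.2

end

end H64.Palfy
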