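import Mathlib
import Cfsg.Agent.Lib.Palfy.ND1

/-! Groups without divisibility among non-linear degrees: the Frobenius-like configuration. -/

set_option autoImplicit false
open Cfsg Subgroup
open scoped Pointwise commutatorElement ComplexConjugate

namespace H64.Palfy

variable {G : Type*} [Group G] [Finite G]

theorem surj_iff_fpf {M : Subgroup G} [hM : M.Normal] (t : G) :
    (∀ m ∈ M, ∃ b ∈ M, ⁅b, t⁆ = m) ↔ ∀ b ∈ M, t * b = b * t → b = 1 := by
  let f : M → M := fun b => ⟨⁅(b : G), t⁆, by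
    rw [commutatorElement_def, mul_assoc, mul_assoc, ← mul_assoc t]
    exact mul_mem b.2 (hM.conj_mem _ (inv_mem b.2) t)⟩
  have h : Function.Injective f ↔ Function.Surjective f := Finite.injective_iff_surjective
  constructor
  · intro hs b hb e
    have := h.mpr (fun m => by
      obtain ⟨b, hb, e⟩ := hs m m.2
      exact ⟨⟨b, hb⟩, Subtype.ext e⟩) (a₁ := ⟨b, hb⟩) (a₂ := 1) (Subtype.ext (by
        show ⁅b, t⁆ = ⁅(1 : G), t⁆
        rw [commutatorElement_one_left, commutatorElement_eq_one_iff_mul_comm, e]))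
    exact congrArg Subtype.val this
  · intro hf m hm
    obtain ⟨b, e⟩ := h.mp (fun a b e => by
      have e : ⁅(a : G), t⁆ = ⁅(b : G), t⁆ := congrArg Subtype.val e
      have := hf ((b : G)⁻¹ * a) (mul_mem (inv_mem b.2) a.2) (by
        calc t * ((b : G)⁻¹ * a) = (b : G)⁻¹ * ⁅(b : G), t⁆ * t * a := by
              rw [commutatorElement_def]; group
          _ = _ := by rw [← e, commutatorElement_def]; group)
      exact Subtype.ext (inv_mul_eq_one.mp this).symm) ⟨m, hm⟩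
    exact ⟨b, b.2, congrArg Subtype.val e⟩

omit [Finite G] in
theorem mem_commutator_iff {N : Subgroup G} {x : N} : x ∈ commutator N ↔ (x : G) ∈ ⁅N, N⁆ := by
  rw [← map_subtype_commutator, mem_map]
  exact ⟨fun h => ⟨x, h, rfl⟩, fun ⟨y, hy, e⟩ => (Subtype.ext e : y = x) ▸ hy⟩

/-- Characters non-linear on `N` have degree prime to the index of `N`. -/
def HC (N : Subgroup G) : Prop :=
  ∀ χ, IsIrrCharacter G χ → ¬ ⁅N, N⁆ ≤ H6.charKer χ → (charDegree χ).Coprime N.index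

namespace HC
variable {N : Subgroup G} [hN : N.Normal] (h : HC N)
include h

theorem cop {M : Subgroup G} [M.Normal] {θ : M → ℂ} (hθ : IsIrrCharacter M θ) {x : M}
    (hx : (x : G) ∈ ⁅N, N⁆) (h1 : θ x ≠ θ 1) {χ : G → ℂ} (hχ : IsIrrCharacter G χ)
    (ho : H87.Over M χ θ) : (charDegree χ).Coprime N.index :=
  h χ hχ fun hk => h1 (ho.apply_eq_of_mem_ker (H6.irr_isCharacter hχ) hθ
    ((H6.mem_charKer (H6.irr_isCharacter hχ)).mp (hk hx)))

theorem cop_inertia {M : Subgroup G} [M.Normal] {θ : M → ℂ} (hθ : IsIrrCharacter M θ) {x : M}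
    (hx : (x : G) ∈ ⁅N, N⁆) (h1 : θ x ≠ θ 1) : (H7.inertia θ).index.Coprime N.index := by
  obtain ⟨χ, hχ, ho⟩ := H87.exists_over hθ
  exact (h.cop hθ hx h1 hχ ho).coprime_dvd_left
    ((Dvd.intro _ rfl).trans (ho.index_inertia_mul_dvd hχ hθ))

theorem inertia_top {ψ : N → ℂ} (hψ : IsIrrCharacter N ψ) (h1 : charDegree ψ ≠ 1) :
    H7.inertia ψ = ⊤ := by
  obtain ⟨x, hx, hk⟩ := SetLike.not_le_iff_exists.mp
    (mt (H87.deg_eq_one_iff_commutator_le hψ).mpr h1)
  exact index_eq_one.mp (Nat.Coprime.eq_one_of_dvd (h.cop_inertia hψ (mem_commutator_iff.mp hx)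
    (mt (H6.mem_charKer (H6.irr_isCharacter hψ)).mpr hk))
    (index_dvd_of_le (H7.le_inertia (H6.irr_isClassFunction hψ))))

theorem conj_eq {x b : G} (hx : x ∈ N) (hc : (x : G ⧸ ⁅N, N⁆) ∉ center _) (hb : b ∈ ⁅N, N⁆) :
    ∃ n ∈ N, ⁅n, x⁆ = b := by
  have hb' : x⁻¹ * b * x ∈ ⁅N, N⁆ := Normal.conj_mem' inferInstance b hb x
  obtain ⟨n, e⟩ := isConj_iff.mp (isConj_of_vanish (x := (⟨x, hx⟩ : N))
    (b := ⟨_, commutator_le_left N N hb'⟩) (fun ψ hψ h1 => by
      by_contra h0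
      refine hc (mem_center_iff.mpr fun g => ?_)
      obtain ⟨g, rfl⟩ := QuotientGroup.mk_surjective g
      have : (⟨g * x * g⁻¹, hN.conj_mem x hx g⟩ * ⟨x, hx⟩⁻¹ : N) ∈ commutator N := by
        refine mem_of_forall_hom le_rfl fun μ _ => ?_
        have e1 := H7.mem_inertia'.mp ((h.inertia_top hψ h1).ge (mem_top g)) ⟨x, hx⟩
        have e2 := H7.mem_inertia'.mp ((h.inertia_top (H6.isIrrCharacter_mul_hom hψ μ)
          (by rwa [H87.deg_mul_hom])).ge (mem_top g)) ⟨x, hx⟩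
        simp only [e1] at e2
        rw [map_mul, map_inv, mul_inv_eq_one]
        exact Units.val_inj.mp (mul_left_cancel₀ h0 e2)
      have := (QuotientGroup.eq_one_iff _).mpr (mem_commutator_iff.mp this)
      simpa [mul_inv_eq_one, mul_inv_eq_iff_eq_mul] using this) (mem_commutator_iff.mpr hb'))
  refine ⟨n, n.2, ?_⟩
  have e : (n : G) * x * (n : G)⁻¹ = x * (x⁻¹ * b * x) := congrArg Subtype.val e
  rw [commutatorElement_def, e]; group

end HC

/-- The configuration: `y` is fixed-point-free on the derived group of `N`. -/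
structure CB (N : Subgroup G) [N.Normal] (y : G) : Prop where
  hc : HC N
  cyc : IsCyclic (G ⧸ N)
  mem : y ∈ N
  fpf : ∀ b ∈ ⁅N, N⁆, y * b = b * y → b = 1

namespace CB
variable {N : Subgroup G} [hN : N.Normal] {y : G} (h : CB N y)
include h

theorem dec {n : G} (hn : n ∈ N) : ∃ b ∈ ⁅N, N⁆, ∃ t ∈ N, t * y = y * t ∧ n = b * t := by
  obtain ⟨b, hb, e⟩ := (surj_iff_fpf y).mpr h.fpf _ (commutator_mem_commutator hn h.mem)
  refine ⟨b, hb, b⁻¹ * n, mul_mem (inv_mem (commutator_le_left N N hb)) hn, ?_, by group⟩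
  calc b⁻¹ * n * y = b⁻¹ * ⁅n, y⁆ * y * n := by rw [commutatorElement_def]; group
    _ = _ := by rw [← e, commutatorElement_def]; group

theorem comm {s t : G} (hs : s ∈ N) (ht : t ∈ N) (e1 : s * y = y * s) (e2 : t * y = y * t) :
    s * t = t * s := by
  rw [← commutatorElement_eq_one_iff_mul_comm]
  refine h.fpf _ (commutator_mem_commutator hs ht) ?_
  have e1 : Commute y s := e1.symm
  have e2 : Commute y t := e2.symm
  exact ((e1.mul_right e2).mul_right e1.inv_right).mul_right e2.inv_right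

theorem fpf' {t : G} (ht : t ∈ N) (e : t * y = y * t) (hc : (t : G ⧸ ⁅N, N⁆) ∉ center _) :
    ∀ b ∈ ⁅N, N⁆, t * b = b * t → b = 1 := by
  refine (surj_iff_fpf t).mp fun m hm => ?_
  obtain ⟨n, hn, rfl⟩ := h.hc.conj_eq ht hc hm
  obtain ⟨b, hb, s, hs, es, rfl⟩ := h.dec hn
  refine ⟨b, hb, ?_⟩
  calc ⁅b, t⁆ = b * (t * s) * s⁻¹ * b⁻¹ * t⁻¹ := by rw [commutatorElement_def]; group
    _ = _ := by rw [h.comm ht hs e es, commutatorElement_def]; group

theorem central {M : Subgroup G} [M.Normal] (hM : M ≤ ⁅N, N⁆) {μ : M →* ℂˣ} (h1 : μ ≠ 1)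
    (hB : ⁅N, N⁆ ≤ st (dual M) μ) {n : G} (hn : n ∈ N) (hs : n ∈ st (dual M) μ) :
    (n : G ⧸ ⁅N, N⁆) ∈ center _ := by
  by_contra hc
  obtain ⟨b, hb, t, ht, e, rfl⟩ := h.dec hn
  rw [QuotientGroup.mk_mul, (QuotientGroup.eq_one_iff b).mpr hb, one_mul] at hc
  refine h1 (MonoidHom.ext fun m => ?_)
  obtain ⟨c, hc, e⟩ := (surj_iff_fpf t).mpr (fun b hb => h.fpf' ht e hc b (hM hb)) m m.2
  exact map_eq_one_of_commutator (X := zpowers t) (zpowers_le_of_mem
    ((mul_mem_cancel_left (hB hb)).mp hs)) (e ▸ commutator_mem_commutator hc (mem_zpowers t))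

theorem nq {W : Type*} [Group W] {φ : G →* MulAut W} (hB : ⁅N, N⁆ ≤ φ.ker) {r : ℕ} [hr : Fact r.Prime]
    (hd : r ∣ N.index) (hw : ∀ w, w ≠ 1 → (st φ w).index.Coprime N.index ∧
      ∀ n ∈ N, n ∈ st φ w → (n : G ⧸ ⁅N, N⁆) ∈ center _) (U : Subgroup W) :
    NQ (QuotientGroup.lift ⁅N, N⁆ φ hB) r U := by
  refine nq_of_comm fun w _ h1 => ?_
  have e : (st (QuotientGroup.lift ⁅N, N⁆ φ hB) w).comap (QuotientGroup.mk' _) = st φ w := rfl
  refine ⟨fun hd' => ?_, fun a ha b hb => ?_⟩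
  · rw [← index_comap_of_surjective _ (QuotientGroup.mk'_surjective _), e] at hd'
    exact hr.1.one_lt.ne' (Nat.Coprime.eq_one_of_dvd (((hw w h1).1.coprime_dvd_left hd')) hd)
  · haveI := h.cyc
    let f := (QuotientGroup.map ⁅N, N⁆ N (MonoidHom.id G) (commutator_le_left N N)).comp
      (st (QuotientGroup.lift ⁅N, N⁆ φ hB) w).subtype
    have := f.isMulCommutative_of_isCyclic_of_ker_le_center fun ⟨x, hx⟩ hk => by
      obtain ⟨x, rfl⟩ := QuotientGroup.mk_surjective x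
      exact mem_center_iff.mpr fun g => Subtype.ext (mem_center_iff.mp
        ((hw w h1).2 x ((QuotientGroup.eq_one_iff x).mp hk) hx) g)
    exact congrArg Subtype.val (this.is_comm.comm ⟨a, ha⟩ ⟨b, hb⟩)

end CB

end H64.Palfy
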