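import Mathlib
import Cfsg.Agent.Lib.Palfy.ND2

/-! Groups without divisibility among non-linear degrees: the action on linear characters. -/

set_option autoImplicit false
open Cfsg Subgroup
open scoped Pointwise commutatorElement ComplexConjugate

namespace H64.Palfy

variable {G : Type*} [Group G] [Finite G]

omit [Finite G] in
theorem eq_bot_of_le_commutator {B M : Subgroup G} [Group.IsNilpotent B] (hM : M ≤ B)
    (h : M ≤ ⁅M, B⁆) : M = ⊥ := by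
  obtain ⟨n, hn⟩ := (isNilpotent_iff_lowerCentralSeries B).mp inferInstance
  have : ∀ k, M ≤ B.lowerCentralSeries k := fun k => by
    induction k with
    | zero => exact hM
    | succ k ih => exact h.trans (commutator_mono ih le_rfl)
  exact le_bot_iff.mp (hn ▸ this n)

theorem exists_hom_of_not_mem {B : Subgroup G} {x : B} (hx : (x : G) ∉ ⁅B, B⁆) :
    ∃ ν : B →* ℂˣ, ν x ≠ 1 := by
  by_contra hc
  push Not at hc
  exact hx (mem_commutator_iff.mp (mem_of_forall_hom le_rfl fun μ _ => hc μ))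

theorem commutator_mem_of_ker {B : Subgroup G} [hB : B.Normal] {c b : G} (hc : c ∈ (dual B).ker)
    (hb : b ∈ B) : ⁅c, b⁆ ∈ ⁅B, B⁆ := by
  have : MulAut.conjNormal c (⟨b, hb⟩ : B) * (⟨b, hb⟩ : B)⁻¹ ∈ commutator B :=
    mem_of_forall_hom le_rfl fun μ _ => by
      rw [map_mul, map_inv, mem_st_dualA.mp (show c ∈ st (dual B) μ by
        rw [mem_st, (MonoidHom.mem_ker).mp hc]; rfl), mul_inv_cancel]
  exact mem_commutator_iff.mp this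

omit [Finite G] in
theorem le_ker_dual (B : Subgroup G) [B.Normal] : B ≤ (dual B).ker :=
  fun _ hg => MulEquiv.ext fun μ => le_st_dual B μ hg

/-- The configuration with a prime `r` of the index and non-normal Sylow subgroup. -/
structure CR (N : Subgroup G) [N.Normal] (y : G) (r : ℕ) : Prop extends CB N y where
  dvd : r ∣ N.index
  ns : Nat.card (Sylow r (G ⧸ ⁅N, N⁆)) ≠ 1
  nil : Group.IsNilpotent ↥⁅N, N⁆
  ne : ⁅N, N⁆ ≠ ⊥

theorem CB.hw {N : Subgroup G} [N.Normal] {y : G} (h : CB N y) {M : Subgroup G} [M.Normal]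
    (hM : M ≤ ⁅N, N⁆) {μ : M →* ℂˣ} (h1 : μ ≠ 1) (hB : ⁅N, N⁆ ≤ st (dual M) μ) :
    (st (dual M) μ).index.Coprime N.index ∧
      ∀ n ∈ N, n ∈ st (dual M) μ → (n : G ⧸ ⁅N, N⁆) ∈ center _ := by
  refine ⟨?_, fun n hn hs => h.central hM h1 hB hn hs⟩
  obtain ⟨x, hx⟩ := DFunLike.ne_iff.mp h1
  rw [st_dual]
  exact h.hc.cop_inertia (H6.isIrrCharacter_hom μ) (hM x.2) (by simpa using hx)

namespace CR
variable {N : Subgroup G} [hN : N.Normal] {y : G} {r : ℕ} [hr : Fact r.Prime] (h : CR N y r)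
include h

theorem nq1 (U : Subgroup (↥⁅N, N⁆ →* ℂˣ)) :
    NQ (QuotientGroup.lift ⁅N, N⁆ (dual ⁅N, N⁆) (le_ker_dual _)) r U :=
  h.toCB.nq _ h.dvd (fun w hw => h.hw le_rfl hw (le_st_dual _ w)) U

omit hr in
theorem exists_not_mem : ∃ x : ↥⁅N, N⁆, (x : G) ∉ ⁅⁅N, N⁆, ⁅N, N⁆⁆ := by
  haveI := h.nil
  obtain ⟨x, hx, h1⟩ := SetLike.not_le_iff_exists.mp (mt (eq_bot_of_le_commutator le_rfl) h.ne)
  exact ⟨⟨x, hx⟩, h1⟩

omit hr in
theorem nontriv : Nontrivial (↥⁅N, N⁆ →* ℂˣ) := by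
  obtain ⟨x, hx⟩ := h.exists_not_mem
  obtain ⟨ν, hν⟩ := exists_hom_of_not_mem hx
  exact ⟨ν, 1, by rintro rfl; exact hν rfl⟩

theorem pgroup : ∃ p : ℕ, p.Prime ∧ IsPGroup p (↥⁅N, N⁆ →* ℂˣ) := by
  haveI := h.nontriv
  haveI : Finite (↥⁅N, N⁆ →* ℂˣ) := finite_dual
  exact (h.nq1 ⊤).isPGroup (fun a b => mul_comm a b) h.ns

theorem mem_ker {t : G} (ht : t ∈ N) {w : ↥⁅N, N⁆ →* ℂˣ} (h1 : w ≠ 1)
    (hs : t ∈ st (dual ⁅N, N⁆) w) : t ∈ (dual ⁅N, N⁆).ker := by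
  haveI := h.nontriv
  haveI : Finite (↥⁅N, N⁆ →* ℂˣ) := finite_dual
  obtain ⟨p, hp, hW⟩ := h.pgroup
  haveI := Fact.mk hp
  have hc := (h.hw le_rfl h1 (le_st_dual _ w)).2 t ht hs
  haveI : (zpowers (t : G ⧸ ⁅N, N⁆)).Normal := ⟨fun x hx g => by
    rwa [mem_center_iff.mp (zpowers_le_of_mem hc hx) g, mul_inv_cancel_right]⟩
  have := card_eq_of_nq hW hW (fix_inv _ (zpowers (t : G ⧸ ⁅N, N⁆))) (fun _ _ _ => mem_top _)
    (h.nq1 _) (h.nq1 ⊤) (fun e => h1 (mem_bot.mp (e.le (le_st.mp (zpowers_le_of_mem hs)))))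
    top_ne_bot h.ns
  have e := eq_of_le_of_card_ge le_top this.ge
  exact MulEquiv.ext fun μ => le_st.mpr (e.ge (mem_top μ)) (mem_zpowers _)

omit hr in
theorem comm_le : ⁅N ⊓ (dual ⁅N, N⁆).ker, N ⊓ (dual ⁅N, N⁆).ker⁆ ≤ ⁅⁅N, N⁆, ⁅N, N⁆⁆ := by
  refine commutator_le.mpr fun c hc d hd => ?_
  obtain ⟨b, hb, t, ht, e, rfl⟩ := h.dec hc.1
  obtain ⟨b', hb', t', ht', e', rfl⟩ := h.dec hd.1
  have k : ∀ {u v : G}, ⁅u, v⁆ ∈ ⁅⁅N, N⁆, ⁅N, N⁆⁆ →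
      Commute (u : G ⧸ ⁅⁅N, N⁆, ⁅N, N⁆⁆) (v : G ⧸ ⁅⁅N, N⁆, ⁅N, N⁆⁆) := fun huv =>
    commutatorElement_eq_one_iff_commute.mp ((QuotientGroup.eq_one_iff _).mpr huv)
  have h1 := k (commutator_mem_of_ker ((mul_mem_cancel_left (le_ker_dual _ hb)).mp hc.2) hb')
  have h2 := k (commutator_mem_of_ker ((mul_mem_cancel_left (le_ker_dual _ hb')).mp hd.2) hb)
  have h3 := k (commutator_mem_commutator hb hb')
  have h4 := k (u := t) (v := t') (by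
    rw [commutatorElement_eq_one_iff_mul_comm.mpr (h.comm ht ht' e e')]; exact one_mem _)
  exact (QuotientGroup.eq_one_iff _).mp (commutatorElement_eq_one_iff_commute.mpr
    ((h3.mul_right h2.symm).mul_left (h1.mul_right h4)))

theorem deg {χ : G → ℂ} (hχ : IsIrrCharacter G χ) (h1 : ⁅⁅N, N⁆, ⁅N, N⁆⁆ ≤ H6.charKer χ)
    (h2 : ¬ ⁅N, N⁆ ≤ H6.charKer χ) :
    N.index * charDegree χ = (N ⊓ (dual ⁅N, N⁆).ker).index := by
  have hχ' := H6.irr_isCharacter hχ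
  have lin : ∀ {M : Subgroup G} {θ : M → ℂ}, IsIrrCharacter M θ → H87.Over M χ θ →
      ⁅M, M⁆ ≤ ⁅⁅N, N⁆, ⁅N, N⁆⁆ → charDegree θ = 1 := fun hθ ho hM =>
    H87.deg_eq_one_of_commutator_le hθ fun x hx => (H6.mem_charKer (H6.irr_isCharacter hθ)).mpr
      (ho.apply_eq_of_mem_ker hχ' hθ ((H6.mem_charKer hχ').mp (h1 (hM (mem_commutator_iff.mp hx)))))
  obtain ⟨θ, hθ, ho⟩ := H87.exists_under hχ ⁅N, N⁆
  obtain ⟨μ, rfl⟩ := H6.exists_hom_of_char_one_eq_one (H6.irr_isCharacter hθ)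
    ((H87.deg_eq_one_iff (H6.irr_isCharacter hθ)).mp (lin hθ ho le_rfl))
  have μ1 : μ ≠ 1 := by
    rintro rfl
    exact h2 (ho.le_charKer hχ (H6.irr_isCharacter hθ) _ le_rfl fun _ _ => rfl)
  have e : N ⊓ (dual ⁅N, N⁆).ker = N ⊓ st (dual ⁅N, N⁆) μ :=
    le_antisymm (inf_le_inf_left _ fun g hg => by rw [mem_st, MonoidHom.mem_ker.mp hg]; rfl)
      fun g hg => ⟨hg.1, h.mem_ker hg.1 μ1 hg.2⟩
  have e2 := H1.index_inf_of_coprime (h.hw le_rfl μ1 (le_st_dual _ μ)).1.symm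
  obtain ⟨ξ, hξ, ho'⟩ := H87.exists_under hχ (N ⊓ (dual ⁅N, N⁆).ker)
  have d1 := ho'.deg_dvd_mul hχ hξ
  rw [lin hξ ho' h.comm_le, mul_one, e, e2] at d1
  rw [e, e2]
  congr 1
  refine Nat.dvd_antisymm ((h.hc χ hχ h2).dvd_of_dvd_mul_left d1) ?_
  rw [st_dual]
  exact (Dvd.intro _ rfl).trans (ho.index_inertia_mul_dvd hχ hθ)

end CR

end H64.Palfy
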