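import Mathlib
import Cfsg.Agent.Lib.Palfy.ND3

/-! Groups without divisibility among non-linear degrees: the derived group of `N` is abelian. -/

set_option autoImplicit false
open Cfsg Subgroup
open scoped Pointwise commutatorElement ComplexConjugate

namespace H64.Palfy

variable {G : Type*} [Group G] [Finite G]

/-- The invariant linear characters of the derived group. -/
noncomputable abbrev Inv (B : Subgroup G) [B.Normal] : Subgroup (↥⁅B, B⁆ →* ℂˣ) :=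
  H2.fixSub (H := ↥⁅B, B⁆ →* ℂˣ) (dual ⁅B, B⁆) B

/-- The commutator form of an invariant linear character of the derived group. -/
noncomputable def form (B : Subgroup G) [B.Normal] (x : B) : Inv B →* (B →* ℂˣ) :=
  MonoidHom.mk' (fun μ => MonoidHom.mk'
    (fun y => μ.1 ⟨⁅(y : G), (x : G)⁆, commutator_mem_commutator y.2 x.2⟩) fun y z => by
      rw [← mem_st_dualA.mp (le_st.mpr μ.2 y.2) ⟨⁅(z : G), (x : G)⁆, _⟩, mul_comm, ← map_mul]
      congr 1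
      ext
      simp only [coe_mul, MulAut.conjNormal_apply, commutatorElement_def]
      group) fun _ _ => rfl

omit [Finite G] in
theorem form_apply (B : Subgroup G) [B.Normal] (x : B) (μ : Inv B) (y : B) :
    form B x μ y = μ.1 ⟨⁅(y : G), (x : G)⁆, commutator_mem_commutator y.2 x.2⟩ := rfl

omit [Finite G] in
theorem isPGroup_inv {B : Subgroup G} [B.Normal] [Finite (B →* ℂˣ)] {p : ℕ} [Fact p.Prime]
    (h : IsPGroup p (B →* ℂˣ)) : IsPGroup p (Inv B) := by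
  obtain ⟨k, hk⟩ := h.exists_card_eq
  refine fun μ => ⟨k, Subtype.ext (MonoidHom.ext fun m => ?_)⟩
  have : ⁅B, B⁆ ≤ ((μ ^ p ^ k : Inv B).1.ker).map (⁅B, B⁆ : Subgroup G).subtype :=
    commutator_le.mpr fun y hy x hx => ⟨⟨_, commutator_mem_commutator hy hx⟩, by
      have : form B ⟨x, hx⟩ (μ ^ p ^ k) ⟨y, hy⟩ = 1 := by
        rw [map_pow, ← hk, pow_card_eq_one']; rfl
      exact this, rfl⟩
  obtain ⟨y, hy, e⟩ := this m.2
  exact (Subtype.ext e : y = m) ▸ hy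

theorem nontrivial_inv {B : Subgroup G} [B.Normal] [Group.IsNilpotent B] (h : ⁅B, B⁆ ≠ ⊥) :
    Nontrivial (Inv B) := by
  obtain ⟨x, hx, h1⟩ := SetLike.not_le_iff_exists.mp
    (mt (eq_bot_of_le_commutator (commutator_le_left B B)) h)
  obtain ⟨μ, h2, h3⟩ := H87.exists_hom_trivial_ne_one (⁅⁅B, B⁆, B⁆.subgroupOf ⁅B, B⁆)
    (fun z hz => commutator_mono le_rfl (commutator_le_left B B) (mem_commutator_iff.mp hz))
    (g := ⟨x, hx⟩) h1
  refine ⟨⟨μ, le_st.mp fun b hb => mem_st_dualA.mpr fun m => ?_⟩, 1, fun e => h3 (by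
    rw [show μ = 1 from congrArg Subtype.val e]; rfl)⟩
  rw [← mul_inv_eq_one, ← map_inv, ← map_mul]
  refine h2 _ ?_
  have := commutator_mem_commutator hb m.2
  rw [commutator_comm] at this
  exact this

theorem exists_theta {B : Subgroup G} [B.Normal] {x : B} {μ : Inv B} (h1 : μ ≠ 1)
    (hx : form B x μ = 1) : ∃ θ, IsIrrCharacter B θ ∧ θ x ≠ 0 ∧
      ∃ m : B, (m : G) ∈ ⁅B, B⁆ ∧ θ m ≠ θ 1 := by
  classical
  haveI := Fintype.ofFinite B
  let μ' := μ.1.comp (subgroupOfEquivOfLe (commutator_le_left B B)).toMonoidHom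
  have hμ := H6.isIrrCharacter_hom μ'
  obtain ⟨θ, hθ, ho⟩ := H87.exists_over hμ
  obtain ⟨e, he, hd, hr⟩ := ho.res_eq_of_invariant hθ hμ (eq_top_iff.mpr fun g _ =>
    H7.mem_inertia'.mpr fun n => congrArg Units.val
      (mem_st_dualA.mp (le_st.mpr μ.2 g.2) ⟨n.1.1, n.2⟩))
  have e1 : θ 1 = e := by simpa using hr 1
  have e0 : (e : ℂ) ≠ 0 := Nat.cast_ne_zero.mpr he.ne'
  refine ⟨θ, hθ, fun h0 => ?_, ?_⟩
  · have := H87.sum_conj_mul hθ x x⁻¹
    rw [h0, mul_zero, zero_mul, zero_div, Finset.sum_congr rfl (g := fun _ => (e : ℂ)) fun z _ => by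
      have h2 : μ.1 _ = 1 := DFunLike.congr_fun hx z
      have h3 := hr ⟨z * x * z⁻¹ * x⁻¹, commutator_mem_commutator z.2 x.2⟩
      have h4 : μ' ⟨z * x * z⁻¹ * x⁻¹, commutator_mem_commutator z.2 x.2⟩ = 1 := h2
      rw [h4] at h3
      simpa using h3] at this
    simp [e0] at this
  · obtain ⟨m, hm⟩ := DFunLike.ne_iff.mp (show μ.1 ≠ 1 from fun e => h1 (Subtype.ext e))
    refine ⟨⟨m, commutator_le_left B B m.2⟩, m.2, fun h2 => hm ?_⟩
    have h3 := hr ⟨⟨m, commutator_le_left B B m.2⟩, m.2⟩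
    rw [h2, e1, eq_comm, mul_eq_left₀ e0, Units.val_eq_one] at h3
    exact h3

/-- The linear characters trivial on the support of `θ`. -/
def ann {B : Type*} [Group B] (θ : B → ℂ) : Subgroup (B →* ℂˣ) where
  carrier := {κ | ∀ b, θ b ≠ 0 → κ b = 1}
  one_mem' := fun _ _ => rfl
  mul_mem' := fun h1 h2 b hb => by rw [MonoidHom.mul_apply, h1 b hb, h2 b hb, one_mul]
  inv_mem' := fun h1 b hb => by rw [MonoidHom.inv_apply, h1 b hb, inv_one]

omit [Finite G] in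
theorem two_fpf {B : Subgroup G} [B.Normal] [Finite (B →* ℂˣ)] {θ : B → ℂ} {ν : B →* ℂˣ} {s t : G}
    (hst : s * t = t * s) (hs : s ∈ H7.inertia θ) (ht : t ∈ H7.inertia fun b => θ b * ν b)
    (fs : ∀ w, dual B s w = w → w = 1) (ft : ∀ w, dual B t w = w → w = 1) : ν ∈ ann θ := by
  have es : ∀ b, θ (MulAut.conjNormal s⁻¹ b) = θ b := H7.mem_inertia'.mp (inv_mem hs)
  have et : ∀ b, θ (MulAut.conjNormal t⁻¹ b) * ν (MulAut.conjNormal t⁻¹ b) = θ b * ν b :=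
    H7.mem_inertia'.mp (inv_mem ht)
  have nz : ∀ b, θ b ≠ 0 → θ (MulAut.conjNormal t⁻¹ b) ≠ 0 := fun b hb h0 => by
    have := et b
    rw [h0, zero_mul] at this
    exact mul_ne_zero hb (Units.ne_zero _) this.symm
  refine mem_of_fpf (φ := dual B) (Y := ann θ) (fun a b => mul_comm a b) ft
    (fun w hw b hb => hw _ (nz b hb)) (mem_of_fpf (φ := dual B) (Y := ann θ)
    (fun a b => mul_comm a b) fs (fun w hw b hb => hw _ fun h0 => hb ((es b).symm.trans h0))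
    fun b hb => ?_)
  have e1 := et (MulAut.conjNormal s⁻¹ b)
  rw [← app_mul, ← mul_inv_rev, hst, mul_inv_rev, app_mul, es, es, ← app_mul, ← mul_inv_rev,
    ← hst, mul_inv_rev, app_mul] at e1
  have e2 := et b
  simp only [MonoidHom.mul_apply, MonoidHom.inv_apply, dualA_apply]
  rw [mul_inv_eq_one, ← div_eq_mul_inv, ← div_eq_mul_inv, div_eq_div_iff_mul_eq_mul]
  refine Units.ext (mul_left_cancel₀ (mul_ne_zero hb (nz b hb)) ?_)
  rw [Units.val_mul, Units.val_mul]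
  linear_combination (θ b * ν b) * e1 - (θ b * ν (MulAut.conjNormal s⁻¹ b)) * e2

namespace CR
variable {N : Subgroup G} [hN : N.Normal] {y : G} {r : ℕ} [hr : Fact r.Prime] (h : CR N y r)
include h

theorem exists_form (h0 : ⁅⁅N, N⁆, ⁅N, N⁆⁆ ≠ ⊥) {x : ↥⁅N, N⁆} (hx : (x : G) ∉ ⁅⁅N, N⁆, ⁅N, N⁆⁆) :
    ∃ μ, μ ≠ 1 ∧ form ⁅N, N⁆ x μ = 1 := by
  haveI := h.nontriv
  haveI := h.nil
  haveI := nontrivial_inv h0
  haveI : Finite (↥⁅N, N⁆ →* ℂˣ) := finite_dual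
  haveI : Finite (↥⁅⁅N, N⁆, ⁅N, N⁆⁆ →* ℂˣ) := finite_dual
  obtain ⟨p, hp, hW⟩ := h.pgroup
  haveI := Fact.mk hp
  let φ := H2.subAut (H := ↥⁅⁅N, N⁆, ⁅N, N⁆⁆ →* ℂˣ) (dual ⁅⁅N, N⁆, ⁅N, N⁆⁆) (Inv ⁅N, N⁆) (fix_inv _ _)
  have e : ∀ w : Inv ⁅N, N⁆, st φ w = st (dual ⁅⁅N, N⁆, ⁅N, N⁆⁆) w.1 := fun w =>
    Subgroup.ext fun g => Subtype.ext_iff
  have hq := h.toCB.nq (φ := φ) (fun b hb => MulEquiv.ext fun w => Subtype.ext (w.2 b hb)) h.dvd
    (fun w hw => e w ▸ h.hw (commutator_le_left _ _) (fun e => hw (Subtype.ext e))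
      (le_st.mpr w.2)) ⊤
  have hc := card_eq_of_nq (isPGroup_inv hW) hW (fun _ _ _ => mem_top _) (fun _ _ _ => mem_top _)
    hq (h.nq1 ⊤) top_ne_bot top_ne_bot h.ns
  rw [card_top, card_top] at hc
  by_contra hn
  push Not at hn
  have inj : Function.Injective (form ⁅N, N⁆ x) :=
    (injective_iff_map_eq_one _).mpr fun μ e => by_contra fun h1 => hn μ h1 e
  obtain ⟨ν, hν⟩ := exists_hom_of_not_mem hx
  obtain ⟨μ, rfl⟩ := ((Nat.bijective_iff_injective_and_card _).mpr ⟨inj, hc⟩).2 ν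
  refine hν ?_
  rw [form_apply, ← map_one μ.1]
  congr 1
  exact Subtype.ext (commutatorElement_self _)

theorem exists_fpf {θ : ↥⁅N, N⁆ → ℂ} (hθ : IsIrrCharacter _ θ)
    (hn : ¬ N ⊓ H7.inertia θ ≤ N ⊓ (dual ⁅N, N⁆).ker) : ∃ t ∈ N, t * y = y * t ∧
      t ∈ H7.inertia θ ∧ ∀ w, dual ⁅N, N⁆ t w = w → w = 1 := by
  obtain ⟨n, h1, h2⟩ := SetLike.not_le_iff_exists.mp hn
  obtain ⟨b, hb, t, ht, e, rfl⟩ := h.dec h1.1
  exact ⟨t, ht, e, (mul_mem_cancel_left (H7.le_inertia (H6.irr_isClassFunction hθ) hb)).mp h1.2,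
    fun w hw => by_contra fun w1 => h2 ⟨h1.1, mul_mem (le_ker_dual _ hb) (h.mem_ker ht w1 hw)⟩⟩

theorem single (hnd : ND G) : ∃ d, ∀ χ, IsIrrCharacter G χ → ¬ ⁅N, N⁆ ≤ H6.charKer χ →
    charDegree χ = d := by
  obtain ⟨x, hx⟩ := h.exists_not_mem
  obtain ⟨τ, hτ, k1, k2⟩ := H87.exists_irr_ker_of_not_mem _ hx
  have k3 : ¬ ⁅N, N⁆ ≤ H6.charKer τ := fun e => k2 (e x.2)
  have dτ := h.deg hτ k1 k3
  have pos : 0 < N.index := Nat.pos_of_ne_zero index_ne_zero_of_finite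
  by_cases h0 : ⁅⁅N, N⁆, ⁅N, N⁆⁆ = ⊥
  · exact ⟨_, fun χ hχ hk => Nat.eq_of_mul_eq_mul_left pos
      ((h.deg hχ (h0.le.trans bot_le) hk).trans dτ.symm)⟩
  exfalso
  haveI : Finite (↥⁅N, N⁆ →* ℂˣ) := finite_dual
  obtain ⟨μ, μ1, hμ⟩ := h.exists_form h0 hx
  obtain ⟨θ, hθ, θx, m, hm, θm⟩ := exists_theta μ1 hμ
  obtain ⟨ν, hν⟩ := exists_hom_of_not_mem hx
  obtain ⟨η, hη, ηm, hle⟩ : ∃ η, IsIrrCharacter _ η ∧ η m ≠ η 1 ∧
      N ⊓ H7.inertia η ≤ N ⊓ (dual ⁅N, N⁆).ker := by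
    by_contra hc
    push Not at hc
    have hθ' := H6.isIrrCharacter_mul_hom hθ ν
    obtain ⟨s, hs, es, is, fs⟩ := h.exists_fpf hθ (hc _ hθ θm)
    obtain ⟨t, ht, et, it, ft⟩ := h.exists_fpf hθ' (hc _ hθ' (by
      rw [show ν m = 1 from Abelianization.commutator_subset_ker ν (mem_commutator_iff.mpr hm)]
      simpa using θm))
    exact hν (two_fpf (h.comm hs ht es et) is it fs ft x θx)
  obtain ⟨χ, hχ, ho⟩ := H87.exists_over hη
  have d1 := index_dvd_of_le hle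
  rw [← dτ, H1.index_inf_of_coprime (h.hc.cop_inertia hη m.2 ηm).symm,
    Nat.mul_dvd_mul_iff_left pos] at d1
  have d2 := (Nat.mul_dvd_mul_right d1 _).trans (ho.index_inertia_mul_dvd hχ hη)
  rw [← hnd τ χ hτ hχ (fun e => k3 ((commutator_mono le_top le_top).trans
    ((H87.deg_eq_one_iff_commutator_le hτ).mp e))) ((Dvd.intro _ rfl).trans d2)] at d2
  have d3 : charDegree η = 1 := Nat.dvd_one.mp
    ((Nat.mul_dvd_mul_iff_left (H87.deg_pos hτ)).mp (by rwa [mul_one]))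
  exact ηm ((H6.mem_charKer (H6.irr_isCharacter hη)).mp
    ((H87.deg_eq_one_iff_commutator_le hη).mp d3 (mem_commutator_iff.mpr hm)))

end CR

end H64.Palfy
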